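import Cfsg.Agent.H820.JM.SwapM22
import Cfsg.Agent.H856.AutM22
import Cfsg.Agent.S5563
import Cfsg.Agent.S5564
import Cfsg.Agent.Lib.Cores

/-!
# The involutions inverting an element of order 3 of `J4` (helper820, S5580)

`ncard_invert_le` : in a simple group of Janko-four type an element of order 3 is inverted by at most
`10296 = 6 * 1716` involutions (its normalizer modulo the centre of its centralizer is `Aut(M22)`).
-/

set_option autoImplicit false

open Cfsg

namespace Cfsg.Agent.H820.JM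

open Cfsg.Agent.BabyM.DuadGen (duad mem_duad)
open scoped commutatorElement
open Cfsg.Agent.SporadicA.MathieuRecog (mem_M22_iff card_M22 simple_M22)

/-- Abstract form: `C` a group with a homomorphism `f` into the duad stabiliser, `K` a perfect subgroup whose
elements commute with `p`, `6 * |M22| ≤ |K|`, every element of the kernel of `f` normalizing `⟨p⟩` commutes with
`p` and there are at most 6 of these. -/
theorem ncard_le_of_hom {C : Type*} [Group C] [Finite C] (f : C →* Equiv.Perm GolayPt)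
    (hf : ∀ c, f c ∈ duad) (p : C) (K : Subgroup C) (hK : ⁅K, K⁆ = K) (hKp : ∀ k ∈ K, k * p = p * k)
    (hcard : 6 * 443520 ≤ Nat.card K)
    (hp : p ≠ p⁻¹)
    (hker : {c : C | f c = 1 ∧ c * p = p * c}.ncard ≤ 6)
    (hkn : ∀ c : C, f c = 1 → (c * p * c⁻¹ = p ∨ c * p * c⁻¹ = p⁻¹) → c * p = p * c) :
    {t : C | t * t = 1 ∧ t * p * t⁻¹ = p⁻¹}.ncard ≤ 10296 := by
  classical
  -- the image of `K` is `M22`
  have hKM : K.map f = Spor.M22 := by
    have h1 : K.map f ≤ Spor.M22 := by
      rw [← hK, Subgroup.map_commutator, Subgroup.commutator_le]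
      rintro a ⟨x, -, rfl⟩ b ⟨y, -, rfl⟩
      rw [mem_M22_iff]
      have key : ∀ u v : Equiv.Perm GolayPt, u ∈ duad → v ∈ duad → ⁅u, v⁆ none = none ∧ ⁅u, v⁆ (some 0) = some 0 := by
        intro u v hu hv
        have hui := duad.inv_mem hu
        have hvi := duad.inv_mem hv
        rw [commutatorElement_def, Equiv.Perm.mul_apply, Equiv.Perm.mul_apply, Equiv.Perm.mul_apply,
          Equiv.Perm.mul_apply, Equiv.Perm.mul_apply, Equiv.Perm.mul_apply]
        have inv_fix : ∀ w : Equiv.Perm GolayPt, (w none = none ∧ w (some 0) = some 0) →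
            w⁻¹ none = none ∧ w⁻¹ (some 0) = some 0 := by
          rintro w ⟨h1, h2⟩
          exact ⟨by rw [Equiv.Perm.inv_eq_iff_eq, h1], by rw [Equiv.Perm.inv_eq_iff_eq, h2]⟩
        have inv_sw : ∀ w : Equiv.Perm GolayPt, (w none = some 0 ∧ w (some 0) = none) →
            w⁻¹ none = some 0 ∧ w⁻¹ (some 0) = none := by
          rintro w ⟨h1, h2⟩
          exact ⟨by rw [Equiv.Perm.inv_eq_iff_eq, h2], by rw [Equiv.Perm.inv_eq_iff_eq, h1]⟩
        rcases (mem_duad.1 hu).2 with h | h <;> rcases (mem_duad.1 hv).2 with h' | h'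
        · obtain ⟨a1, a2⟩ := inv_fix u h
          obtain ⟨b1, b2⟩ := inv_fix v h'
          rw [b1, b2, a1, a2, h'.1, h'.2, h.1, h.2]
          exact ⟨rfl, rfl⟩
        · obtain ⟨a1, a2⟩ := inv_fix u h
          obtain ⟨b1, b2⟩ := inv_sw v h'
          rw [b1, b2, a1, a2, h'.1, h'.2, h.1, h.2]
          exact ⟨rfl, rfl⟩
        · obtain ⟨a1, a2⟩ := inv_sw u h
          obtain ⟨b1, b2⟩ := inv_fix v h'
          rw [b1, b2, a1, a2, h'.1, h'.2, h.1, h.2]
          exact ⟨rfl, rfl⟩
        · obtain ⟨a1, a2⟩ := inv_sw u h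
          obtain ⟨b1, b2⟩ := inv_sw v h'
          rw [b1, b2, a1, a2, h'.1, h'.2, h.1, h.2]
          exact ⟨rfl, rfl⟩
      refine ⟨?_, key _ _ (hf x) (hf y)⟩
      have hx := (mem_duad.1 (hf x)).1
      have hy := (mem_duad.1 (hf y)).1
      rw [commutatorElement_def]
      exact M24.mul_mem (M24.mul_mem (M24.mul_mem hx hy) (M24.inv_mem hx)) (M24.inv_mem hy)
    refine Subgroup.eq_of_le_of_card_ge h1 ?_
    rw [card_M22]
    -- the order
    let fK : K →* Equiv.Perm GolayPt := f.comp K.subtype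
    have h2 : fK.range = K.map f := by
      rw [MonoidHom.range_comp, Subgroup.range_subtype]
    have h3 : Nat.card fK.ker * Nat.card (K.map f) = Nat.card K := by
      rw [← h2, ← Subgroup.index_ker, Subgroup.card_mul_index]
    have h4 : Nat.card fK.ker ≤ 6 := by
      refine le_trans ?_ hker
      rw [← Nat.card_coe_set_eq]
      refine Nat.card_le_card_of_injective (fun c => ⟨((c : K) : C), ?_, ?_⟩) ?_
      · exact c.2
      · exact hKp _ (c : K).2
      · intro a b h
        have h' : ((a : K) : C) = ((b : K) : C) := Subtype.mk.inj h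
        exact Subtype.ext (Subtype.ext h')
    by_contra hlt
    rw [not_le] at hlt
    have h5 : Nat.card fK.ker * Nat.card (K.map f) ≤ 6 * Nat.card (K.map f) := Nat.mul_le_mul_right _ h4
    omega
  -- the map
  have hfin : Fintype C := Fintype.ofFinite _
  let T : Finset C := Finset.univ.filter fun t => t * t = 1 ∧ t * p * t⁻¹ = p⁻¹
  have hT : {t : C | t * t = 1 ∧ t * p * t⁻¹ = p⁻¹} = (T : Set C) := by
    ext t
    simp [T]
  have himg : (T.image f).card ≤ 1716 := by
    refine le_trans ?_ ncard_swap_perm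
    rw [← Set.ncard_coe_finset]
    refine Set.ncard_le_ncard ?_ (Set.toFinite _)
    rintro _ hb
    obtain ⟨t, ht, rfl⟩ := Finset.mem_image.1 (Finset.mem_coe.1 hb)
    obtain ⟨h2, hi⟩ := (Finset.mem_filter.1 ht).2
    refine ⟨(mem_duad.1 (hf t)).1, by rw [← map_mul, h2, map_one], ?_⟩
    rcases (mem_duad.1 (hf t)).2 with h | h
    · exfalso
      have h3 : f t ∈ K.map f := by
        rw [hKM, mem_M22_iff]
        exact ⟨(mem_duad.1 (hf t)).1, h.1, h.2⟩
      obtain ⟨k, hk, hkt⟩ := h3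
      have hkp := hKp k hk
      have h4 : k⁻¹ * t * p * (k⁻¹ * t)⁻¹ = p⁻¹ := by
        calc k⁻¹ * t * p * (k⁻¹ * t)⁻¹ = k⁻¹ * (t * p * t⁻¹) * k := by group
          _ = (k⁻¹ * (p * k))⁻¹ := by rw [hi]; group
          _ = p⁻¹ := by rw [← hkp]; group
      have h5 : (k⁻¹ * t) * p = p * (k⁻¹ * t) := by
        refine hkn _ ?_ (Or.inr h4)
        rw [map_mul, map_inv, hkt, inv_mul_cancel]
      rw [h5, mul_inv_cancel_right] at h4
      exact hp h4
    · exact h.1
  have hfib : ∀ b ∈ T.image f, (T.filter fun x => f x = b).card ≤ 6 := by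
    intro b hb
    obtain ⟨t, ht, rfl⟩ := Finset.mem_image.1 hb
    obtain ⟨h2, hi⟩ := (Finset.mem_filter.1 ht).2
    refine le_trans ?_ hker
    rw [← Set.ncard_coe_finset]
    refine Set.ncard_le_ncard_of_injOn (fun x => t⁻¹ * x) ?_ (fun a _ b _ h => mul_left_cancel h) (Set.toFinite _)
    intro x hx
    obtain ⟨hx1, hx2⟩ := Finset.mem_filter.1 (Finset.mem_coe.1 hx)
    obtain ⟨hx3, hx4⟩ := (Finset.mem_filter.1 hx1).2
    have h1 : f (t⁻¹ * x) = 1 := by rw [map_mul, map_inv, hx2, inv_mul_cancel]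
    refine ⟨h1, hkn _ h1 (Or.inl ?_)⟩
    have h3 : t⁻¹ * p⁻¹ * t = p := by
      rw [← hi]; group
    calc t⁻¹ * x * p * (t⁻¹ * x)⁻¹ = t⁻¹ * (x * p * x⁻¹) * t := by group
      _ = p := by rw [hx4, h3]
  have := Finset.card_le_mul_card_image T 6 hfib
  rw [hT, Set.ncard_coe_finset]
  omega

/-- **At most 10296 involutions invert an element of order 3 of `J4`.** -/
theorem ncard_invert_le {G : Type*} [Group G] [Finite G] [IsSimpleGroup G] (hG : ¬ IsMulCommutative G)
    (hJ : Cfsg.IsOfJankoFourType G) {x : G} (hx : orderOf x = 3) :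
    {t : G | t * t = 1 ∧ t * x * t⁻¹ = x⁻¹}.ncard ≤ 10296 := by
  classical
  have hconj := Cfsg.Agent.S5564.result hG hJ
  obtain ⟨z, P, h⟩ := hJ
  obtain ⟨hperf, -, hc6, h22, hN⟩ := Cfsg.Agent.S5563.result hG z P h
  obtain ⟨hz, hE, hEcard, hCE, ⟨N, hEN, hNC, hnor, hNcard, ⟨hnorm, ⟨e⟩⟩, hPN⟩, hP3, hEP, -, -⟩ := h
  have h3f : Fact (Nat.Prime 3) := ⟨Nat.prime_three⟩
  obtain ⟨⟨p, hpP⟩, hp⟩ := exists_prime_orderOf_dvd_card' (G := P) 3 (by rw [hP3])
  rw [Subgroup.orderOf_mk] at hp
  have hPp : P = Subgroup.zpowers p := by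
    symm
    apply Subgroup.eq_of_le_of_card_ge
    · rw [Subgroup.zpowers_le]; exact hpP
    · rw [hP3, Nat.card_zpowers, hp]
  obtain ⟨g, hg⟩ := isConj_iff.1 (hconj x p hx hp)
  set C : Subgroup G := Subgroup.centralizer ({z} : Set G) with hC
  set E : Subgroup G := twoCoreOfCentralizer z with hEdef
  have hpC : p ∈ C := hNC (hPN hpP)
  -- `E` is normal in `C`
  have hEn : ∀ c ∈ C, ∀ a ∈ E, c * a * c⁻¹ ∈ E := by
    rintro c hc a ⟨⟨a', ha'C⟩, ha', rfl⟩
    have hn : (pCore 2 ↥C).Normal := Cfsg.Agent.Lib.Cores.pCore_normal 2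
    exact ⟨⟨c, hc⟩ * ⟨a', ha'C⟩ * (⟨c, hc⟩ : C)⁻¹, hn.conj_mem _ ha' _, rfl⟩
  have hpE : p ∉ E := by
    intro hpE
    have h1 : orderOf (⟨p, hpE⟩ : E) ∣ Nat.card E := orderOf_dvd_natCard _
    rw [Subgroup.orderOf_mk, hp, hEcard] at h1
    exact absurd h1 (by norm_num)
  have hp3 : p * p * p = 1 := by
    have := pow_orderOf_eq_one p
    rwa [hp, pow_succ, pow_two] at this
  have hrel : E.relIndex N = 3 := by
    have h1 := (E.subgroupOf N).card_mul_index
    rw [Nat.card_congr (Subgroup.subgroupOfEquivOfLe hEN).toEquiv, hNcard, mul_comm 3] at h1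
    exact Nat.eq_of_mul_eq_mul_left Nat.card_pos h1
  -- membership in `N_G(P)`
  have hnP : ∀ t : G, (t * p * t⁻¹ = p ∨ t * p * t⁻¹ = p⁻¹) → t ∈ C := by
    intro t ht
    refine hN ?_
    have hle : ∀ a ∈ P, t * a * t⁻¹ ∈ P := by
      intro a ha
      rw [hPp] at ha ⊢
      obtain ⟨k, rfl⟩ := Subgroup.mem_zpowers_iff.1 ha
      have h1 : t * p ^ k * t⁻¹ = (t * p * t⁻¹) ^ k := conj_zpow.symm
      rw [h1]
      rcases ht with ht | ht
      · rw [ht]
        exact Subgroup.mem_zpowers_iff.2 ⟨k, rfl⟩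
      · rw [ht]
        exact Subgroup.mem_zpowers_iff.2 ⟨-k, by rw [inv_zpow, zpow_neg]⟩
    have hmap : P.map (MulAut.conj t).toMonoidHom = P := by
      refine Subgroup.eq_of_le_of_card_ge ?_ ?_
      · rintro _ ⟨a, ha, rfl⟩
        exact hle a ha
      · rw [Subgroup.card_map_of_injective (MulAut.conj t).injective]
    rw [Subgroup.mem_normalizer_iff]
    intro a
    refine ⟨hle a, fun ha => ?_⟩
    rw [← hmap] at ha
    obtain ⟨b, hb, hba⟩ := ha
    have h2 : t * b * t⁻¹ = t * a * t⁻¹ := hba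
    rw [← mul_left_cancel (mul_right_cancel h2)]
    exact hb
  -- the homomorphism
  let f : ↥C →* Equiv.Perm GolayPt :=
    Cfsg.Agent.H856.AutM22.autHom.comp (e.toMonoidHom.comp (QuotientGroup.mk' (N.subgroupOf C)))
  have hf1 : ∀ c : C, f c = 1 ↔ (c : G) ∈ N := by
    intro c
    have h1 : f c = 1 ↔ QuotientGroup.mk' (N.subgroupOf C) c = 1 := by
      constructor
      · intro h
        have h2 : Cfsg.Agent.H856.AutM22.autHom (e (QuotientGroup.mk' (N.subgroupOf C) c)) =
            Cfsg.Agent.H856.AutM22.autHom 1 := by rw [map_one]; exact h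
        have h3 := Cfsg.Agent.H856.AutM22.autHom_injective h2
        exact e.injective (h3.trans (map_one e).symm)
      · intro h
        show Cfsg.Agent.H856.AutM22.autHom (e (QuotientGroup.mk' (N.subgroupOf C) c)) = 1
        rw [h, map_one, map_one]
    rw [h1, QuotientGroup.mk'_apply, QuotientGroup.eq_one_iff, Subgroup.mem_subgroupOf]
  have hPcent : ∀ c : G, c ∈ Subgroup.centralizer (P : Set G) ↔ c * p = p * c := by
    intro c
    rw [hPp, Subgroup.mem_centralizer_iff]
    constructor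
    · intro h1
      exact (h1 p (Subgroup.mem_zpowers p)).symm
    · intro h1 a ha
      obtain ⟨k, rfl⟩ := Subgroup.mem_zpowers_iff.1 ha
      exact (show Commute p c from h1.symm).zpow_left k
  have key := ncard_le_of_hom f (fun c => by
      rw [← Cfsg.Agent.H856.AutM22.autHom_range]
      exact ⟨_, rfl⟩) ⟨p, hpC⟩ ((C ⊓ Subgroup.centralizer (P : Set G)).subgroupOf C) ?_ ?_ ?_ ?_ ?_ ?_
  · -- transport
    refine le_trans ?_ key
    refine Set.ncard_le_ncard_of_injOn (fun t => if ht : g * t * g⁻¹ ∈ C then ⟨g * t * g⁻¹, ht⟩ else 1)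
      ?_ ?_ (Set.toFinite _)
    · rintro t ⟨h2, hi⟩
      have hi' : g * t * g⁻¹ * p * (g * t * g⁻¹)⁻¹ = p⁻¹ := by
        rw [← hg]
        calc g * t * g⁻¹ * (g * x * g⁻¹) * (g * t * g⁻¹)⁻¹ = g * (t * x * t⁻¹) * g⁻¹ := by group
          _ = _ := by rw [hi]; group
      have ht := hnP _ (Or.inr hi')
      simp only [ht, dite_true]
      refine ⟨Subtype.ext ?_, Subtype.ext hi'⟩
      show g * t * g⁻¹ * (g * t * g⁻¹) = 1
      calc g * t * g⁻¹ * (g * t * g⁻¹) = g * (t * t) * g⁻¹ := by group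
        _ = 1 := by rw [h2]; group
    · rintro t ⟨-, hi⟩ s ⟨-, hj⟩ h0
      have hi' : g * t * g⁻¹ * p * (g * t * g⁻¹)⁻¹ = p⁻¹ := by
        rw [← hg]
        calc g * t * g⁻¹ * (g * x * g⁻¹) * (g * t * g⁻¹)⁻¹ = g * (t * x * t⁻¹) * g⁻¹ := by group
          _ = _ := by rw [hi]; group
      have hj' : g * s * g⁻¹ * p * (g * s * g⁻¹)⁻¹ = p⁻¹ := by
        rw [← hg]
        calc g * s * g⁻¹ * (g * x * g⁻¹) * (g * s * g⁻¹)⁻¹ = g * (s * x * s⁻¹) * g⁻¹ := by group
          _ = _ := by rw [hj]; group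
      have ht := hnP _ (Or.inr hi')
      have hs := hnP _ (Or.inr hj')
      simp only [ht, hs, dite_true] at h0
      have h4 : g * t * g⁻¹ = g * s * g⁻¹ := congrArg Subtype.val h0
      exact mul_left_cancel (mul_right_cancel h4)
  · -- perfect
    apply Subgroup.map_injective C.subtype_injective
    rw [Subgroup.map_commutator, Subgroup.map_subgroupOf_eq_of_le inf_le_left]
    exact hperf
  · intro k hk
    exact Subtype.ext ((hPcent k).1 (Subgroup.mem_subgroupOf.1 hk).2)
  · rw [Nat.card_congr (Subgroup.subgroupOfEquivOfLe inf_le_left).toEquiv]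
    obtain ⟨e2⟩ := h22
    have h1 := Subgroup.card_eq_card_quotient_mul_card_subgroup
      (Subgroup.center ↥(C ⊓ Subgroup.centralizer (P : Set G)))
    rw [Nat.card_congr e2.toEquiv, card_M22, hc6] at h1
    omega
  · intro h1
    have h2 : p = p⁻¹ := congrArg Subtype.val h1
    have h3 : p * p = 1 := by
      nth_rewrite 2 [h2]
      exact mul_inv_cancel p
    rw [h3, one_mul] at hp3
    rw [hp3, orderOf_one] at hp
    exact absurd hp (by norm_num)
  · -- the kernel
    have h1 : Nat.card (N ⊓ Subgroup.centralizer (P : Set G) : Subgroup G) ≤ 6 := by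
      have h2 := (E.subgroupOf (N ⊓ Subgroup.centralizer (P : Set G))).card_mul_index
      have h3 : (E.subgroupOf (N ⊓ Subgroup.centralizer (P : Set G))).index ≤ 3 := by
        rw [← hrel]
        exact Subgroup.relIndex_le_of_le_right inf_le_left (by rw [hrel]; norm_num)
      have h4 : Nat.card (E.subgroupOf (N ⊓ Subgroup.centralizer (P : Set G))) ≤ 2 := by
        have h5 : Nat.card (Subgroup.zpowers z) = 2 := by rw [Nat.card_zpowers, hz]
        rw [← h5, ← hEP]
        refine Nat.card_le_card_of_injective (fun c => ⟨((c : (N ⊓ Subgroup.centralizer (P : Set G) :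
          Subgroup G)) : G), Subgroup.mem_subgroupOf.1 c.2, (c : (N ⊓ Subgroup.centralizer (P : Set G) :
          Subgroup G)).2.2⟩) ?_
        intro a b h
        have h' : ((a : (N ⊓ Subgroup.centralizer (P : Set G) : Subgroup G)) : G) = b := Subtype.mk.inj h
        exact Subtype.ext (Subtype.ext h')
      rw [← h2]
      exact Nat.mul_le_mul h4 h3
    refine le_trans ?_ h1
    rw [← Nat.card_coe_set_eq]
    refine Nat.card_le_card_of_injective (fun c => ⟨(c : C), (hf1 _).1 c.2.1,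
      (hPcent _).2 (congrArg Subtype.val c.2.2)⟩) ?_
    intro a b h
    have h' : ((a : C) : G) = ((b : C) : G) := Subtype.mk.inj h
    exact Subtype.ext (Subtype.ext h')
  · intro c hc hcp
    rcases hcp with hcp | hcp
    · rw [mul_inv_eq_iff_eq_mul] at hcp
      exact hcp
    · exfalso
      have hcN : (c : G) ∈ N := (hf1 c).1 hc
      have hcp' : (c : G) * p * (c : G)⁻¹ = p⁻¹ := congrArg Subtype.val hcp
      have hnE : (E.subgroupOf N).Normal := by
        refine ⟨fun a ha b => ?_⟩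
        rw [Subgroup.mem_subgroupOf] at ha ⊢
        exact hEn _ (hNC b.2) _ ha
      have hq : Nat.card (N ⧸ E.subgroupOf N) = 3 := hrel
      have hcyc : IsCyclic (N ⧸ E.subgroupOf N) := isCyclic_of_prime_card hq
      have hcomm : ∀ a b : N ⧸ E.subgroupOf N, a * b = b * a := fun a b =>
        (IsCyclic.commGroup (α := N ⧸ E.subgroupOf N)).mul_comm a b
      let c' : N := ⟨c, hcN⟩
      let p' : N := ⟨p, hPN hpP⟩
      have h1 : c' * p' * c'⁻¹ = p'⁻¹ := Subtype.ext hcp'
      have h2 : (QuotientGroup.mk (c' * p' * c'⁻¹) : N ⧸ E.subgroupOf N) = QuotientGroup.mk p' := by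
        rw [QuotientGroup.mk_mul, QuotientGroup.mk_mul, hcomm (QuotientGroup.mk c'), mul_assoc,
          ← QuotientGroup.mk_mul, mul_inv_cancel, QuotientGroup.mk_one, mul_one]
      rw [h1, QuotientGroup.eq, inv_inv, Subgroup.mem_subgroupOf] at h2
      have h3 : p * p ∈ E := h2
      have h4 : p * p * (p * p) ∈ E := E.mul_mem h3 h3
      have h5 : p * p * (p * p) = p := by
        rw [← mul_assoc, hp3, one_mul]
      rw [h5] at h4
      exact hpE h4

end Cfsg.Agent.H820.JM
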